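import Mathlib
import Cfsg.Agent.H568.Sn

/-!
# Subnormalizers of `p`-subgroups

`SS p H` is the set of the elements `g` normalizing some `p`-subgroup which contains `H`; for a `p`-subgroup `H` these are
the elements `g` with `H` subnormal in `⟨H, g⟩`.
-/

set_option autoImplicit false

namespace Cfsg.Agent.H515.Subn

open Cfsg

/-- elements normalizing a `p`-subgroup that contains `H` -/
def SS (p : ℕ) {G : Type*} [Group G] (H : Subgroup G) : Set G :=
  {g | ∃ R : Subgroup G, IsPGroup p R ∧ H ≤ R ∧ g ∈ Subgroup.normalizer (R : Set G)}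

variable {p : ℕ} {G : Type*} [Group G]

theorem isSubnormal_iff_mem [Finite G] [Fact p.Prime] {H : Subgroup G} (hH : IsPGroup p H) (g : G) :
    (H.subgroupOf (H ⊔ Subgroup.zpowers g)).IsSubnormal ↔ g ∈ SS p H := by
  constructor
  · intro h
    have h1 := Cfsg.Agent.H568.Sn.le_pCore_of_subnormal hH h
    set X : Subgroup G := H ⊔ Subgroup.zpowers g with hX
    have hHX : H ≤ X := le_sup_left
    have hgX : g ∈ X := Subgroup.mem_sup_right (Subgroup.mem_zpowers g)
    refine ⟨(pCore p X).map X.subtype, (Cfsg.Agent.Lib.Cores.pCore_isPGroup p).map _, ?_, ?_⟩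
    · intro x hx
      exact ⟨⟨x, hHX hx⟩, h1 (Subgroup.mem_subgroupOf.mpr hx), rfl⟩
    · have hn : (pCore p X).Normal := Cfsg.Agent.Lib.Cores.pCore_normal p
      have key : ∀ u ∈ X, ∀ x ∈ (pCore p X).map X.subtype, u * x * u⁻¹ ∈ (pCore p X).map X.subtype := by
        rintro u hu _ ⟨y, hy, rfl⟩
        exact ⟨⟨u, hu⟩ * y * ⟨u, hu⟩⁻¹, hn.conj_mem y hy _, rfl⟩
      rw [Subgroup.mem_normalizer_iff]
      intro x
      refine ⟨fun hx => key g hgX x hx, fun hx => ?_⟩
      have := key g⁻¹ (X.inv_mem hgX) _ hx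
      have e : g⁻¹ * (g * x * g⁻¹) * g⁻¹⁻¹ = x := by group
      rwa [e] at this
  · rintro ⟨R, hR, hHR, hg⟩
    refine Cfsg.Agent.H568.Sn.subnormal_of_normalized hR hHR ?_
    refine sup_le (hHR.trans Subgroup.le_normalizer) ?_
    rwa [Subgroup.zpowers_le]

/-- if `R` is a `p`-subgroup then some `p`-subgroup `R'` above `R` is `p`-radical and has `N(R) ≤ N(R')`. -/
theorem exists_radical [Finite G] [Fact p.Prime] :
    ∀ (n : ℕ) (R : Subgroup G), Nat.card G - Nat.card R = n → IsPGroup p R →
      ∃ R' : Subgroup G, R ≤ R' ∧ IsPGroup p R' ∧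
        (pCore p (Subgroup.normalizer (R' : Set G))).map (Subgroup.normalizer (R' : Set G)).subtype = R' ∧
        Subgroup.normalizer (R : Set G) ≤ Subgroup.normalizer (R' : Set G) := by
  intro n
  induction n using Nat.strong_induction_on with
  | _ n ih =>
    intro R hRn hR
    set N := Subgroup.normalizer (R : Set G) with hN
    set R1 : Subgroup G := (pCore p N).map N.subtype with hR1
    have hRN : R ≤ N := Subgroup.le_normalizer
    have hle : R ≤ R1 := by
      have h1 : R.subgroupOf N ≤ pCore p N := by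
        refine Cfsg.Agent.Lib.Cores.le_pCore ?_ ?_
        · exact Subgroup.normal_in_normalizer
        · exact hR.comap_of_injective N.subtype (Subgroup.subtype_injective N)
      intro x hx
      exact ⟨⟨x, hRN hx⟩, h1 (Subgroup.mem_subgroupOf.mpr hx), rfl⟩
    have hR1p : IsPGroup p R1 := (Cfsg.Agent.Lib.Cores.pCore_isPGroup p).map _
    have hnn : N ≤ Subgroup.normalizer (R1 : Set G) := by
      have hn : (pCore p N).Normal := Cfsg.Agent.Lib.Cores.pCore_normal p
      have key : ∀ u ∈ N, ∀ x ∈ (pCore p N).map N.subtype, u * x * u⁻¹ ∈ (pCore p N).map N.subtype := by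
        rintro u hu _ ⟨y, hy, rfl⟩
        exact ⟨⟨u, hu⟩ * y * ⟨u, hu⟩⁻¹, hn.conj_mem y hy _, rfl⟩
      intro g hg
      rw [Subgroup.mem_normalizer_iff]
      intro x
      refine ⟨fun hx => key g hg x hx, fun hx => ?_⟩
      have := key g⁻¹ (N.inv_mem hg) _ hx
      have e : g⁻¹ * (g * x * g⁻¹) * g⁻¹⁻¹ = x := by group
      rwa [e] at this
    rcases hle.eq_or_lt with h | h
    · refine ⟨R, le_rfl, hR, h.symm, le_rfl⟩
    · have hlt : Nat.card R < Nat.card R1 := by
        refine lt_of_le_of_ne (Subgroup.card_le_of_le hle) ?_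
        intro hc
        exact h.ne (Subgroup.eq_of_le_of_card_ge hle hc.ge)
      have h2 : Nat.card R1 ≤ Nat.card G := Subgroup.card_le_card_group R1
      obtain ⟨R', h3, h4, h5, h6⟩ := ih (Nat.card G - Nat.card R1) (by omega) R1 rfl hR1p
      exact ⟨R', hle.trans h3, h4, h5, hnn.trans h6⟩

end Cfsg.Agent.H515.Subn
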