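import Mathlib
import Cfsg.Agent.H515.Subn

/-!
# Counting subnormalizers and Sylow subgroups modulo a normal subgroup
-/

set_option autoImplicit false

namespace Cfsg.Agent.H515.Count

open Cfsg Cfsg.Agent.H515.Subn

/-- A map all of whose fibres have `c` elements. -/
theorem card_eq_mul_of_fiber {X Y : Type*} [Finite X] [Finite Y] (f : X → Y) (c : ℕ)
    (h : ∀ y, Nat.card {x // f x = y} = c) : Nat.card X = c * Nat.card Y := by
  classical
  have := Fintype.ofFinite Y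
  rw [Nat.card_congr (Equiv.sigmaFiberEquiv f).symm, Nat.card_sigma]
  rw [Finset.sum_congr rfl (fun y _ => h y), Finset.sum_const, Finset.card_univ, smul_eq_mul,
    Nat.card_eq_fintype_card (α := Y), mul_comm]

set_option linter.unusedSectionVars false

section ker
variable {p : ℕ} {G G' : Type*} [Group G] [Group G'] [Finite G] [Fact p.Prime] (φ : G →* G')

theorem inf_ker_eq_bot (hK : (Nat.card φ.ker).Coprime p) {T : Subgroup G} (hT : IsPGroup p T) :
    ∀ x ∈ T, φ x = 1 → x = 1 := by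
  intro x hx hx1
  have h1 : orderOf x ∣ Nat.card φ.ker := by
    have := orderOf_dvd_natCard (⟨x, MonoidHom.mem_ker.mpr hx1⟩ : φ.ker)
    rwa [Subgroup.orderOf_mk] at this
  obtain ⟨k, hk⟩ := hT ⟨x, hx⟩
  have h2 : x ^ p ^ k = 1 := by simpa using congrArg Subtype.val hk
  have h3 : orderOf x ∣ p ^ k := orderOf_dvd_of_pow_eq_one h2
  have h4 : (Nat.card φ.ker).Coprime (p ^ k) := Nat.Coprime.pow_right k hK
  have h5 := Nat.eq_one_of_dvd_coprimes h4 h1 h3
  exact orderOf_eq_one_iff.mp h5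

/-- **Lemma A.** -/
theorem comm_of_conj_mem (hK : (Nat.card φ.ker).Coprime p) {T : Subgroup G} (hT : IsPGroup p T)
    {k h : G} (hk : φ k = 1) (hh : h ∈ T) (hc : k * h * k⁻¹ ∈ T) : k * h = h * k := by
  have h1 : k * h * k⁻¹ * h⁻¹ ∈ T := T.mul_mem hc (T.inv_mem hh)
  have h2 : φ (k * h * k⁻¹ * h⁻¹) = 1 := by simp [hk]
  have h3 := inf_ker_eq_bot φ hK hT _ h1 h2
  have h4 : k * h * k⁻¹ = h := mul_inv_eq_one.mp h3
  exact mul_inv_eq_iff_eq_mul.mp h4

theorem card_map_of_coprime (hK : (Nat.card φ.ker).Coprime p) {T : Subgroup G} (hT : IsPGroup p T) :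
    Nat.card (T.map φ) = Nat.card T := by
  refine Nat.card_congr (Equiv.ofBijective (fun x : T => (⟨φ x, ⟨x, x.2, rfl⟩⟩ : T.map φ)) ⟨?_, ?_⟩).symm
  · intro x y hxy
    have h1 : φ x = φ y := congrArg Subtype.val hxy
    have h2 : φ ((x : G) * (y : G)⁻¹) = 1 := by rw [map_mul, map_inv, h1, mul_inv_cancel]
    have h3 := inf_ker_eq_bot φ hK hT _ (T.mul_mem x.2 (T.inv_mem y.2)) h2
    exact Subtype.ext (mul_inv_eq_one.mp h3)
  · rintro ⟨_, x, hx, rfl⟩
    exact ⟨⟨x, hx⟩, rfl⟩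

theorem card_comap (M' : Subgroup G') (hM : M' ≤ φ.range) :
    Nat.card (M'.comap φ) = Nat.card φ.ker * Nat.card M' := by
  have : Finite M' := Finite.of_surjective (fun x : M'.comap φ => (⟨φ x, x.2⟩ : M')) (by
    rintro ⟨y, hy⟩
    obtain ⟨x, rfl⟩ := hM hy
    exact ⟨⟨x, hy⟩, rfl⟩)
  refine card_eq_mul_of_fiber (fun x : M'.comap φ => (⟨φ x, x.2⟩ : M')) _ ?_
  rintro ⟨y, hy⟩
  obtain ⟨x0, rfl⟩ := hM hy
  refine Nat.card_congr ⟨fun x => ⟨x0⁻¹ * x.1.1, ?_⟩, fun k => ⟨⟨x0 * k, ?_⟩, ?_⟩, ?_, ?_⟩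
  · have h1 : φ x.1.1 = φ x0 := congrArg Subtype.val x.2
    rw [MonoidHom.mem_ker, map_mul, map_inv, h1, inv_mul_cancel]
  · have := k.2
    rw [MonoidHom.mem_ker] at this
    rw [Subgroup.mem_comap, map_mul, this, mul_one]; exact hy
  · have := k.2
    rw [MonoidHom.mem_ker] at this
    apply Subtype.ext
    simp [this]
  · intro x
    apply Subtype.ext
    apply Subtype.ext
    simp
  · intro k
    apply Subtype.ext
    simp

/-- the preimage of the image of a `p`-subgroup -/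
theorem index_subgroupOf_comap (hK : (Nat.card φ.ker).Coprime p) {T : Subgroup G} (hT : IsPGroup p T) :
    (T.subgroupOf ((T.map φ).comap φ)).index = Nat.card φ.ker := by
  have h1 : Nat.card ((T.map φ).comap φ) = Nat.card φ.ker * Nat.card T := by
    rw [card_comap φ _ (by rintro _ ⟨x, _, rfl⟩; exact ⟨x, rfl⟩), card_map_of_coprime φ hK hT]
  have hle : T ≤ (T.map φ).comap φ := Subgroup.le_comap_map φ T
  have h2 : Nat.card (T.subgroupOf ((T.map φ).comap φ)) = Nat.card T :=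
    Nat.card_congr (Subgroup.subgroupOfEquivOfLe hle).toEquiv
  have h3 := (T.subgroupOf ((T.map φ).comap φ)).card_mul_index
  rw [h2, h1, mul_comm] at h3
  exact Nat.eq_of_mul_eq_mul_right Nat.card_pos h3

/-- **Lemma B.** Two `p`-subgroups with the same image are conjugate under the kernel. -/
theorem exists_conj_of_map_eq (hK : (Nat.card φ.ker).Coprime p) {T T0 : Subgroup G} (hT : IsPGroup p T)
    (hT0 : IsPGroup p T0) (h : T.map φ = T0.map φ) :
    ∃ k : G, φ k = 1 ∧ T = T0.map (MulAut.conj k).toMonoidHom := by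
  set L : Subgroup G := (T0.map φ).comap φ with hL
  have hTL : T ≤ L := by rw [hL, ← h]; exact Subgroup.le_comap_map φ T
  have hT0L : T0 ≤ L := Subgroup.le_comap_map φ T0
  have hp : p.Prime := Fact.out
  have hndvd : ¬ p ∣ Nat.card φ.ker := by
    intro hd
    have h1 := Nat.dvd_gcd hd (dvd_refl p)
    rw [hK] at h1
    exact hp.one_lt.ne' (Nat.dvd_one.mp h1)
  have i1 : ¬ p ∣ (T.subgroupOf L).index := by
    have := index_subgroupOf_comap φ hK hT
    rw [h] at this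
    rw [hL, this]; exact hndvd
  have i2 : ¬ p ∣ (T0.subgroupOf L).index := by
    rw [hL, index_subgroupOf_comap φ hK hT0]; exact hndvd
  let S : Sylow p L := (hT.comap_of_injective L.subtype (Subgroup.subtype_injective L) :
    IsPGroup p (T.subgroupOf L)).toSylow i1
  let S0 : Sylow p L := (hT0.comap_of_injective L.subtype (Subgroup.subtype_injective L) :
    IsPGroup p (T0.subgroupOf L)).toSylow i2
  obtain ⟨l, hl⟩ := MulAction.exists_smul_eq L S0 S
  obtain ⟨t, ht, htl⟩ : φ l ∈ T0.map φ := l.2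
  refine ⟨(l : G) * t⁻¹, by rw [map_mul, map_inv, htl, mul_inv_cancel], ?_⟩
  have hS : (S : Subgroup L) = T.subgroupOf L := rfl
  have hS0 : (S0 : Subgroup L) = T0.subgroupOf L := rfl
  have hl' : ((l • S0 : Sylow p L) : Subgroup L) = T.subgroupOf L := by rw [hl]; rfl
  have hcard : Nat.card T = Nat.card T0 := by
    rw [← card_map_of_coprime φ hK hT, ← card_map_of_coprime φ hK hT0, h]
  refine Subgroup.eq_of_le_of_card_ge ?_ ?_
  · intro x hx
    have h1 : (⟨x, hTL hx⟩ : L) ∈ T.subgroupOf L := Subgroup.mem_subgroupOf.mpr hx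
    rw [← hl'] at h1
    rw [Sylow.coe_subgroup_smul, Subgroup.mem_smul_pointwise_iff_exists] at h1
    obtain ⟨s, hs, hsx⟩ := h1
    have hs' : (s : G) ∈ T0 := hs
    refine ⟨t * s * t⁻¹, T0.mul_mem (T0.mul_mem ht hs') (T0.inv_mem ht), ?_⟩
    have h2 : (l : G) * s * (l : G)⁻¹ = x := by
      have := congrArg Subtype.val hsx
      simpa [MulAut.smul_def, MulAut.conj_apply] using this
    rw [← h2]
    change (l : G) * t⁻¹ * (t * s * t⁻¹) * ((l : G) * t⁻¹)⁻¹ = _
    group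
  · rw [hcard]
    exact (Nat.card_congr (T0.equivMapOfInjective _ (MulAut.conj _).injective).toEquiv).symm.le

/-- existence of a `p`-subgroup over a `p`-subgroup of the image -/
theorem exists_lift (hφ : Function.Surjective φ) (hK : (Nat.card φ.ker).Coprime p) {H : Subgroup G}
    (hH : IsPGroup p H) {M' : Subgroup G'} (hM' : IsPGroup p M') (hHM : H.map φ ≤ M') :
    ∃ T : Subgroup G, IsPGroup p T ∧ H ≤ T ∧ T.map φ = M' := by
  have : Finite G' := Finite.of_surjective φ hφ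
  set L : Subgroup G := M'.comap φ with hL
  have hHL : H ≤ L := Subgroup.map_le_iff_le_comap.mp hHM
  obtain ⟨S, hS⟩ := (hH.comap_of_injective L.subtype (Subgroup.subtype_injective L) :
    IsPGroup p (H.subgroupOf L)).exists_le_sylow
  refine ⟨(S : Subgroup L).map L.subtype, S.2.map _, ?_, ?_⟩
  · intro x hx
    exact ⟨⟨x, hHL hx⟩, hS (Subgroup.mem_subgroupOf.mpr hx), rfl⟩
  · have hle : ((S : Subgroup L).map L.subtype).map φ ≤ M' := by
      rintro _ ⟨_, ⟨x, _, rfl⟩, rfl⟩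
      exact x.2
    refine Subgroup.eq_of_le_of_card_ge hle ?_
    rw [card_map_of_coprime φ hK (S.2.map _)]
    have h1 : Nat.card ((S : Subgroup L).map L.subtype) = Nat.card (S : Subgroup L) :=
      Nat.card_congr ((S : Subgroup L).equivMapOfInjective _ (Subgroup.subtype_injective L)).symm.toEquiv
    rw [h1]
    have h2 : Nat.card L = Nat.card φ.ker * Nat.card M' := card_comap φ M' (by
      rw [MonoidHom.range_eq_top.mpr hφ]; exact le_top)
    have h3 := (S : Subgroup L).card_mul_index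
    have hp : p.Prime := Fact.out
    obtain ⟨a, ha⟩ := IsPGroup.iff_card.mp hM'
    have h4 : (Nat.card M').Coprime (S : Subgroup L).index := by
      rw [ha]
      exact Nat.Coprime.pow_left _ ((Nat.Prime.coprime_iff_not_dvd hp).mpr S.not_dvd_index)
    have h5 : Nat.card M' ∣ Nat.card (S : Subgroup L) := by
      refine h4.dvd_of_dvd_mul_right ?_
      rw [h3, h2]
      exact dvd_mul_left _ _
    exact Nat.le_of_dvd Nat.card_pos h5

/-- the centralizer of `H` in the kernel -/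
abbrev CK (H : Subgroup G) : Type _ := {k : G // φ k = 1 ∧ ∀ h ∈ H, k * h = h * k}

/-- The `p`-subgroups above `H` with a given image are the conjugates of one of them under `C_K(H)`;
there are `|C_K(H)| / |C_K(T0)|` of them. -/
theorem card_CK_eq (hK : (Nat.card φ.ker).Coprime p) {H : Subgroup G} {T0 : Subgroup G}
    (hT0 : IsPGroup p T0) (hHT : H ≤ T0) :
    Nat.card (CK φ H) = Nat.card (CK φ T0) *
      Nat.card {T : Subgroup G // IsPGroup p T ∧ H ≤ T ∧ T.map φ = T0.map φ} := by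
  let f : CK φ H → {T : Subgroup G // IsPGroup p T ∧ H ≤ T ∧ T.map φ = T0.map φ} := fun k =>
    ⟨T0.map (MulAut.conj k.1).toMonoidHom, hT0.map _, by
      intro h hh
      refine ⟨h, hHT hh, ?_⟩
      change k.1 * h * k.1⁻¹ = h
      rw [k.2.2 h hh, mul_inv_cancel_right], by
      ext y
      constructor
      · rintro ⟨_, ⟨t, ht, rfl⟩, rfl⟩
        exact ⟨t, ht, by
          change φ t = φ (k.1 * t * k.1⁻¹)
          rw [map_mul, map_mul, map_inv, k.2.1]; simp⟩
      · rintro ⟨t, ht, rfl⟩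
        exact ⟨_, ⟨t, ht, rfl⟩, by
          change φ (k.1 * t * k.1⁻¹) = φ t
          rw [map_mul, map_mul, map_inv, k.2.1]; simp⟩⟩
  refine card_eq_mul_of_fiber f _ ?_
  rintro ⟨T, hT, hHT', hTT⟩
  obtain ⟨k0, hk0, rfl⟩ := exists_conj_of_map_eq φ hK hT hT0 hTT
  have hk0H : ∀ h ∈ H, k0 * h = h * k0 := by
    intro h hh
    obtain ⟨t, ht, hth⟩ := hHT' hh
    have hth' : k0 * t * k0⁻¹ = h := hth
    have h1 : t = k0⁻¹ * h * k0⁻¹⁻¹ := by rw [← hth']; group
    have h2 := comm_of_conj_mem φ hK hT0 (k := k0⁻¹) (h := h) (by rw [map_inv, hk0, inv_one]) (hHT hh)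
      (by rw [← h1]; exact ht)
    have h3 : k0 * (k0⁻¹ * h) * k0 = k0 * (h * k0⁻¹) * k0 := by rw [h2]
    have e1 : k0 * (k0⁻¹ * h) * k0 = h * k0 := by group
    have e2 : k0 * (h * k0⁻¹) * k0 = k0 * h := by group
    rw [e1, e2] at h3
    exact h3.symm
  refine Nat.card_congr ⟨fun k => ⟨k0⁻¹ * k.1.1, ?_, ?_⟩, fun n => ⟨⟨k0 * n.1, ?_, ?_⟩, ?_⟩, ?_, ?_⟩
  · rw [map_mul, map_inv, hk0, k.1.2.1]; simp
  · intro t ht
    -- `k0⁻¹ k` normalizes `T0`
    have h1 : T0.map (MulAut.conj k.1.1).toMonoidHom = T0.map (MulAut.conj k0).toMonoidHom :=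
      congrArg Subtype.val k.2
    have h2 : k.1.1 * t * k.1.1⁻¹ ∈ T0.map (MulAut.conj k0).toMonoidHom := h1.le ⟨t, ht, rfl⟩
    obtain ⟨t', ht', htt⟩ := h2
    have htt' : k0 * t' * k0⁻¹ = k.1.1 * t * k.1.1⁻¹ := htt
    refine comm_of_conj_mem φ hK hT0 (by rw [map_mul, map_inv, hk0, k.1.2.1]; simp) ht ?_
    have h3 : k0⁻¹ * k.1.1 * t * (k0⁻¹ * k.1.1)⁻¹ = t' := by
      have : t' = k0⁻¹ * (k0 * t' * k0⁻¹) * k0 := by group
      rw [this, htt']; group
    rw [h3]; exact ht'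
  · rw [map_mul, hk0, n.2.1, mul_one]
  · intro h hh
    rw [mul_assoc, n.2.2 h (hHT hh), ← mul_assoc, hk0H h hh, mul_assoc]
  · apply Subtype.ext
    change T0.map (MulAut.conj (k0 * n.1)).toMonoidHom = T0.map (MulAut.conj k0).toMonoidHom
    ext y
    constructor
    · rintro ⟨t, ht, rfl⟩
      refine ⟨t, ht, ?_⟩
      change k0 * t * k0⁻¹ = (k0 * n.1) * t * (k0 * n.1)⁻¹
      have : (k0 * n.1) * t * (k0 * n.1)⁻¹ = k0 * (n.1 * t) * n.1⁻¹ * k0⁻¹ := by group
      rw [this, n.2.2 t ht]; group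
    · rintro ⟨t, ht, rfl⟩
      refine ⟨t, ht, ?_⟩
      change (k0 * n.1) * t * (k0 * n.1)⁻¹ = k0 * t * k0⁻¹
      have : (k0 * n.1) * t * (k0 * n.1)⁻¹ = k0 * (n.1 * t) * n.1⁻¹ * k0⁻¹ := by group
      rw [this, n.2.2 t ht]; group
  · intro k
    apply Subtype.ext
    apply Subtype.ext
    simp
  · intro n
    apply Subtype.ext
    simp

end ker

section TT
variable {p : ℕ} {G G' : Type*} [Group G] [Group G'] (φ : G →* G')

/-- the normal closure of `H` under `x`: smallest subgroup above `H` normalized by `x` -/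
def TT {G : Type*} [Group G] (H : Subgroup G) (x : G) : Subgroup G :=
  sInf {R : Subgroup G | H ≤ R ∧ x ∈ Subgroup.normalizer (R : Set G)}

theorem le_TT (H : Subgroup G) (x : G) : H ≤ TT H x := le_sInf fun _ hR => hR.1

theorem mem_normalizer_TT (H : Subgroup G) (x : G) : x ∈ Subgroup.normalizer (TT H x : Set G) := by
  rw [Subgroup.mem_normalizer_iff]
  intro h
  unfold TT
  rw [Subgroup.mem_sInf, Subgroup.mem_sInf]
  constructor
  · intro hh R hR
    exact (Subgroup.mem_normalizer_iff.mp hR.2 h).1 (hh R hR)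
  · intro hh R hR
    exact (Subgroup.mem_normalizer_iff.mp hR.2 h).2 (hh R hR)

theorem TT_le {H R : Subgroup G} {x : G} (hR : H ≤ R) (hx : x ∈ Subgroup.normalizer (R : Set G)) :
    TT H x ≤ R := sInf_le ⟨hR, hx⟩

theorem mem_SS_iff {H : Subgroup G} {x : G} : x ∈ SS p H ↔ IsPGroup p (TT H x) := by
  constructor
  · rintro ⟨R, hR, hHR, hx⟩
    exact hR.to_le (TT_le hHR hx)
  · intro h
    exact ⟨_, h, le_TT H x, mem_normalizer_TT H x⟩

theorem mem_normalizer_map {R : Subgroup G} {x : G} (hx : x ∈ Subgroup.normalizer (R : Set G)) :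
    φ x ∈ Subgroup.normalizer ((R.map φ : Subgroup G') : Set G') := by
  rw [Subgroup.mem_normalizer_iff]
  intro y
  constructor
  · rintro ⟨t, ht, rfl⟩
    exact ⟨x * t * x⁻¹, (Subgroup.mem_normalizer_iff.mp hx t).1 ht, by simp⟩
  · rintro ⟨t, ht, hty⟩
    refine ⟨x⁻¹ * t * x⁻¹⁻¹, ?_, ?_⟩
    · exact (Subgroup.mem_normalizer_iff.mp (Subgroup.inv_mem _ hx) t).1 ht
    · rw [map_mul, map_mul, hty, map_inv, map_inv, map_inv]; group

theorem map_TT (H : Subgroup G) (x : G) :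
    (TT H x).map φ = TT (H.map φ) (φ x) := by
  apply le_antisymm
  · rw [Subgroup.map_le_iff_le_comap]
    refine TT_le ?_ ?_
    · rw [← Subgroup.map_le_iff_le_comap]
      exact le_TT _ _
    · rw [Subgroup.mem_normalizer_iff]
      intro h
      rw [Subgroup.mem_comap, Subgroup.mem_comap, map_mul, map_mul, map_inv]
      exact Subgroup.mem_normalizer_iff.mp (mem_normalizer_TT (H.map φ) (φ x)) (φ h)
  · refine TT_le (Subgroup.map_mono (le_TT H x)) ?_
    exact mem_normalizer_map φ (mem_normalizer_TT H x)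

end TT

section count
variable {p : ℕ} {G G' : Type*} [Group G] [Group G'] [Finite G] [Fact p.Prime] (φ : G →* G')

theorem card_coset_normalizer (hφ : Function.Surjective φ) (hK : (Nat.card φ.ker).Coprime p)
    {T : Subgroup G} (hT : IsPGroup p T) {y : G'}
    (hy : y ∈ Subgroup.normalizer ((T.map φ : Subgroup G') : Set G')) :
    Nat.card {x : G // φ x = y ∧ x ∈ Subgroup.normalizer (T : Set G)} = Nat.card (CK φ T) := by
  obtain ⟨x0, rfl⟩ := hφ y
  have h1 : T.map φ = (T.map (MulAut.conj x0).toMonoidHom).map φ := by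
    ext y
    constructor
    · intro hy'
      have h2 := (Subgroup.mem_normalizer_iff.mp (Subgroup.inv_mem _ hy) y).1 hy'
      obtain ⟨t, ht, hty⟩ := h2
      refine ⟨_, ⟨t, ht, rfl⟩, ?_⟩
      change φ (x0 * t * x0⁻¹) = y
      rw [map_mul, map_mul, hty, map_inv]; group
    · rintro ⟨_, ⟨t, ht, rfl⟩, rfl⟩
      change φ (x0 * t * x0⁻¹) ∈ _
      rw [map_mul, map_mul, map_inv]
      exact (Subgroup.mem_normalizer_iff.mp hy (φ t)).1 ⟨t, ht, rfl⟩
  obtain ⟨k, hk, hkT⟩ := exists_conj_of_map_eq φ hK hT (hT.map _) h1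
  set z0 : G := k * x0 with hz0
  have hz0y : φ z0 = φ x0 := by rw [hz0, map_mul, hk, one_mul]
  have hz0N : ∀ t, t ∈ T ↔ z0 * t * z0⁻¹ ∈ T := by
    intro t
    have e : z0 * t * z0⁻¹ = k * (x0 * t * x0⁻¹) * k⁻¹ := by rw [hz0]; group
    rw [e]
    constructor
    · intro ht
      rw [hkT]
      exact ⟨_, ⟨t, ht, rfl⟩, rfl⟩
    · intro ht
      rw [hkT] at ht
      obtain ⟨_, ⟨t', ht', rfl⟩, h3⟩ := ht
      have h4 : k * (x0 * t' * x0⁻¹) * k⁻¹ = k * (x0 * t * x0⁻¹) * k⁻¹ := h3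
      have h5 : t' = t := by
        have h6 := congrArg (fun z => x0⁻¹ * (k⁻¹ * z * k) * x0) h4
        have e1 : ∀ t : G, x0⁻¹ * (k⁻¹ * (k * (x0 * t * x0⁻¹) * k⁻¹) * k) * x0 = t := by intro t; group
        simpa only [e1] using h6
      rwa [← h5]
  have hz0N' : z0 ∈ Subgroup.normalizer (T : Set G) := Subgroup.mem_normalizer_iff.mpr hz0N
  refine Nat.card_congr ⟨fun x => ⟨z0⁻¹ * x.1, ?_, ?_⟩, fun n => ⟨z0 * n.1, ?_, ?_⟩, ?_, ?_⟩
  · rw [map_mul, map_inv, hz0y, x.2.1, inv_mul_cancel]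
  · intro t ht
    refine comm_of_conj_mem φ hK hT (by rw [map_mul, map_inv, hz0y, x.2.1, inv_mul_cancel]) ht ?_
    exact (Subgroup.mem_normalizer_iff.mp (Subgroup.mul_mem _ (Subgroup.inv_mem _ hz0N') x.2.2) t).1 ht
  · rw [map_mul, hz0y, n.2.1, mul_one]
  · refine Subgroup.mul_mem _ hz0N' ?_
    rw [Subgroup.mem_normalizer_iff]
    intro t
    constructor
    · intro ht
      have h7 := n.2.2 t ht
      rw [h7, mul_inv_cancel_right]; exact ht
    · intro ht
      have h7 := n.2.2 _ ht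
      have h8 : t = n.1 * t * n.1⁻¹ := by
        have h9 : n.1⁻¹ * (n.1 * (n.1 * t * n.1⁻¹)) * n.1 = n.1⁻¹ * ((n.1 * t * n.1⁻¹) * n.1) * n.1 := by rw [h7]
        have e1 : n.1⁻¹ * (n.1 * (n.1 * t * n.1⁻¹)) * n.1 = n.1 * t := by group
        have e2 : n.1⁻¹ * ((n.1 * t * n.1⁻¹) * n.1) * n.1 = t * n.1 := by group
        rw [e1, e2] at h9
        rw [h9, mul_inv_cancel_right]
      rw [h8]; exact ht
  · intro x
    apply Subtype.ext
    simp
  · intro n
    apply Subtype.ext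
    simp

theorem card_SS_of_coprime (hφ : Function.Surjective φ) (hK : (Nat.card φ.ker).Coprime p)
    {H : Subgroup G} (hH : IsPGroup p H) :
    Nat.card (SS p H) = Nat.card (CK φ H) * Nat.card (SS p (H.map φ)) := by
  have : Finite G' := Finite.of_surjective φ hφ
  let f : SS p H → SS p (H.map φ) := fun x => ⟨φ x.1, by
    obtain ⟨R, hR, hHR, hx⟩ := x.2
    exact ⟨R.map φ, hR.map φ, Subgroup.map_mono hHR, mem_normalizer_map φ hx⟩⟩
  refine card_eq_mul_of_fiber f _ ?_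
  rintro ⟨y, hy⟩
  have hM' : IsPGroup p (TT (H.map φ) y) := mem_SS_iff.mp hy
  obtain ⟨T0, hT0, hHT0, hT0M⟩ := exists_lift φ hφ hK hH hM' (le_TT _ _)
  rw [card_CK_eq φ hK hT0 hHT0]
  let 𝒯 := {T : Subgroup G // IsPGroup p T ∧ H ≤ T ∧ T.map φ = T0.map φ}
  have hne : Nonempty 𝒯 := ⟨⟨T0, hT0, hHT0, rfl⟩⟩
  have hcardT : ∀ T : 𝒯, Nat.card (CK φ T.1) = Nat.card (CK φ T0) := by
    intro T
    have h1 := card_CK_eq φ hK T.2.1 T.2.2.1
    have h2 := card_CK_eq φ hK hT0 hHT0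
    rw [T.2.2.2] at h1
    rw [h1] at h2
    exact Nat.eq_of_mul_eq_mul_right Nat.card_pos h2
  let g : {x : SS p H // f x = ⟨y, hy⟩} → 𝒯 := fun x => ⟨TT H x.1.1, mem_SS_iff.mp x.1.2, le_TT _ _, by
    rw [map_TT, hT0M]
    have : φ x.1.1 = y := congrArg Subtype.val x.2
    rw [this]⟩
  refine card_eq_mul_of_fiber g _ ?_
  intro T
  rw [← hcardT T]
  have hyT : y ∈ Subgroup.normalizer ((T.1.map φ : Subgroup G') : Set G') := by
    rw [T.2.2.2, hT0M]
    exact mem_normalizer_TT _ _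
  rw [← card_coset_normalizer φ hφ hK T.2.1 hyT]
  refine Nat.card_congr ⟨fun x => ⟨x.1.1.1, congrArg Subtype.val x.1.2, ?_⟩,
    fun x => ⟨⟨⟨x.1, ⟨T.1, T.2.1, T.2.2.1, x.2.2⟩⟩, Subtype.ext x.2.1⟩, ?_⟩, ?_, ?_⟩
  · have h1 : TT H x.1.1.1 = T.1 := congrArg Subtype.val x.2
    rw [← h1]
    exact mem_normalizer_TT _ _
  · apply Subtype.ext
    change TT H x.1 = T.1
    have hle : TT H x.1 ≤ T.1 := TT_le T.2.2.1 x.2.2
    refine Subgroup.eq_of_le_of_card_ge hle ?_
    rw [← card_map_of_coprime φ hK T.2.1, ← card_map_of_coprime φ hK (T.2.1.to_le hle), map_TT,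
      x.2.1, T.2.2.2, hT0M]
  · intro x
    rfl
  · intro x
    rfl

theorem card_SS_of_isPGroup (hφ : Function.Surjective φ) (hK : IsPGroup p φ.ker)
    {H : Subgroup G} (hH : IsPGroup p H) :
    Nat.card (SS p H) = Nat.card φ.ker * Nat.card (SS p (H.map φ)) := by
  have : Finite G' := Finite.of_surjective φ hφ
  let f : SS p H → SS p (H.map φ) := fun x => ⟨φ x.1, by
    obtain ⟨R, hR, hHR, hx⟩ := x.2
    exact ⟨R.map φ, hR.map φ, Subgroup.map_mono hHR, mem_normalizer_map φ hx⟩⟩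
  refine card_eq_mul_of_fiber f _ ?_
  rintro ⟨y, hy⟩
  obtain ⟨x0, rfl⟩ := hφ y
  have hmem : ∀ x, φ x = φ x0 → x ∈ SS p H := by
    intro x hx
    obtain ⟨R, hR, hHR, hyR⟩ := hy
    refine ⟨R.comap φ, hR.comap_of_ker_isPGroup φ hK, Subgroup.map_le_iff_le_comap.mp hHR, ?_⟩
    rw [Subgroup.mem_normalizer_iff]
    intro h
    rw [Subgroup.mem_comap, Subgroup.mem_comap, map_mul, map_mul, map_inv, hx]
    exact Subgroup.mem_normalizer_iff.mp hyR (φ h)
  refine Nat.card_congr ⟨fun x => ⟨x0⁻¹ * x.1.1, ?_⟩, fun k => ⟨⟨x0 * k.1, hmem _ ?_⟩, ?_⟩, ?_, ?_⟩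
  · have h1 : φ x.1.1 = φ x0 := congrArg Subtype.val x.2
    rw [MonoidHom.mem_ker, map_mul, map_inv, h1, inv_mul_cancel]
  · have := k.2
    rw [MonoidHom.mem_ker] at this
    rw [map_mul, this, mul_one]
  · have := k.2
    rw [MonoidHom.mem_ker] at this
    apply Subtype.ext
    change φ (x0 * k.1) = φ x0
    rw [map_mul, this, mul_one]
  · intro x
    apply Subtype.ext
    apply Subtype.ext
    simp
  · intro k
    apply Subtype.ext
    simp

/-- the number of Sylow `p`-subgroups containing `H` -/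
noncomputable def lam (p : ℕ) {G : Type*} [Group G] (H : Subgroup G) : ℕ :=
  Nat.card {S : Sylow p G // H ≤ (S : Subgroup G)}

end count

end Cfsg.Agent.H515.Count
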