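import Mathlib
import Cfsg.Agent.H515.KeyIneq

/-!
# The number of Sylow subgroups containing an element of a `p`-solvable group
-/

set_option autoImplicit false
set_option linter.unusedSectionVars false
set_option linter.style.haveILetI false
open scoped BigOperators Pointwise

namespace Cfsg.Agent.H515.Lam

open Cfsg Cfsg.Agent.H515.Count Cfsg.Agent.H515.KeyIneq

section ker
variable {p : ℕ} {G G' : Type*} [Group G] [Group G'] [Finite G] [Fact p.Prime] (φ : G →* G')

/-- `|C_K(S)|` is the same for all Sylow subgroups -/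
theorem card_CK_sylow (S T : Sylow p G) : Nat.card (CK φ (S : Subgroup G)) = Nat.card (CK φ (T : Subgroup G)) := by
  obtain ⟨g, rfl⟩ := MulAction.exists_smul_eq G S T
  refine Nat.card_congr ⟨fun k => ⟨g * k.1 * g⁻¹, ?_, ?_⟩, fun k => ⟨g⁻¹ * k.1 * g, ?_, ?_⟩, ?_, ?_⟩
  · rw [map_mul, map_mul, map_inv, k.2.1]; simp
  · intro h hh
    rw [Sylow.coe_subgroup_smul, Subgroup.mem_smul_pointwise_iff_exists] at hh
    obtain ⟨s, hs, rfl⟩ := hh
    have h1 := k.2.2 s hs
    change g * k.1 * g⁻¹ * (g * s * g⁻¹) = (g * s * g⁻¹) * (g * k.1 * g⁻¹)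
    have e1 : g * k.1 * g⁻¹ * (g * s * g⁻¹) = g * (k.1 * s) * g⁻¹ := by group
    have e2 : (g * s * g⁻¹) * (g * k.1 * g⁻¹) = g * (s * k.1) * g⁻¹ := by group
    rw [e1, e2, h1]
  · rw [map_mul, map_mul, map_inv, k.2.1]; simp
  · intro s hs
    have h1 := k.2.2 (g * s * g⁻¹) (by
      rw [Sylow.coe_subgroup_smul, Subgroup.mem_smul_pointwise_iff_exists]
      exact ⟨s, hs, rfl⟩)
    have e1 : g⁻¹ * k.1 * g * s = g⁻¹ * (k.1 * (g * s * g⁻¹)) * g := by group
    have e2 : s * (g⁻¹ * k.1 * g) = g⁻¹ * ((g * s * g⁻¹) * k.1) * g := by group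
    rw [e1, e2, h1]
  · intro k; apply Subtype.ext; change g⁻¹ * (g * k.1 * g⁻¹) * g = k.1; group
  · intro k; apply Subtype.ext; change g * (g⁻¹ * k.1 * g) * g⁻¹ = k.1; group

theorem card_factorization (hφ : Function.Surjective φ) (hK : (Nat.card φ.ker).Coprime p) :
    (Nat.card G).factorization p = (Nat.card G').factorization p := by
  have hp : p.Prime := Fact.out
  have h1 := card_comap φ ⊤ (by rw [MonoidHom.range_eq_top.mpr hφ])
  rw [Subgroup.comap_top, Subgroup.card_top, Subgroup.card_top] at h1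
  have : Finite G' := Finite.of_surjective φ hφ
  rw [h1, Nat.factorization_mul Nat.card_pos.ne' Nat.card_pos.ne', Finsupp.add_apply]
  have h2 : (Nat.card φ.ker).factorization p = 0 := by
    apply Nat.factorization_eq_zero_of_not_dvd
    intro hd
    have h2 := Nat.dvd_gcd hd (dvd_refl p)
    rw [hK] at h2
    exact hp.one_lt.ne' (Nat.dvd_one.mp h2)
  rw [h2, zero_add]

theorem lam_of_coprime (hφ : Function.Surjective φ) (hK : (Nat.card φ.ker).Coprime p)
    {H : Subgroup G} (hH : IsPGroup p H) (P : Sylow p G) :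
    lam p H * Nat.card (CK φ (P : Subgroup G)) = Nat.card (CK φ H) * lam p (H.map φ) := by
  have : Finite G' := Finite.of_surjective φ hφ
  let f : {S : Sylow p G // H ≤ (S : Subgroup G)} → {S : Sylow p G' // H.map φ ≤ (S : Subgroup G')} :=
    fun S => ⟨S.1.mapSurjective hφ, by
      rw [Sylow.coe_mapSurjective]; exact Subgroup.map_mono S.2⟩
  have hfib : ∀ y, Nat.card {S // f S = y} * Nat.card (CK φ (P : Subgroup G)) = Nat.card (CK φ H) := by
    rintro ⟨S', hS'⟩
    obtain ⟨T0, hT0, hHT0, hT0M⟩ := exists_lift φ hφ hK hH S'.2 hS'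
    have hcard : ∀ T : Subgroup G, IsPGroup p T → T.map φ = (S' : Subgroup G') →
        Nat.card T = p ^ ((Nat.card G).factorization p) := by
      intro T hT hTS
      rw [← card_map_of_coprime φ hK hT, hTS, Sylow.card_eq_multiplicity, card_factorization φ hφ hK]
    have h1 := card_CK_eq φ hK hT0 hHT0
    have h0 : Nat.card (CK φ T0) = Nat.card (CK φ (P : Subgroup G)) :=
      card_CK_sylow φ (Sylow.ofCard T0 (hcard T0 hT0 hT0M)) P
    rw [← h0, h1, mul_comm]
    congr 1
    refine Nat.card_congr ⟨fun S => ⟨S.1.1, S.1.1.2, S.1.2, ?_⟩,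
      fun T => ⟨⟨Sylow.ofCard T.1 (hcard T.1 T.2.1 (by rw [T.2.2.2, hT0M])), T.2.2.1⟩, ?_⟩, ?_, ?_⟩
    · have h2 : (S.1.1.mapSurjective hφ : Subgroup G') = S' := by
        have := congrArg (fun z => ((z.1 : Sylow p G') : Subgroup G')) S.2
        exact this
      rw [Sylow.coe_mapSurjective] at h2
      rw [h2, hT0M]
    · apply Subtype.ext
      apply Sylow.ext
      exact T.2.2.2.trans hT0M
    · intro S
      apply Subtype.ext; apply Subtype.ext; apply Sylow.ext; rfl
    · intro T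
      apply Subtype.ext; rfl
  -- sum
  classical
  have := Fintype.ofFinite {S : Sylow p G' // H.map φ ≤ (S : Subgroup G')}
  unfold lam
  rw [Nat.card_congr (Equiv.sigmaFiberEquiv f).symm, Nat.card_sigma, Finset.sum_mul,
    Finset.sum_congr rfl (fun y _ => hfib y), Finset.sum_const, Finset.card_univ, smul_eq_mul,
    Nat.card_eq_fintype_card (α := {S : Sylow p G' // H.map φ ≤ (S : Subgroup G')}), mul_comm]

theorem lam_of_isPGroup (hφ : Function.Surjective φ) (hK : IsPGroup p φ.ker) (H : Subgroup G) :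
    lam p H = lam p (H.map φ) := by
  have : Finite G' := Finite.of_surjective φ hφ
  refine Nat.card_congr (Equiv.ofBijective
    (fun S : {S : Sylow p G // H ≤ (S : Subgroup G)} =>
      (⟨S.1.mapSurjective hφ, by rw [Sylow.coe_mapSurjective]; exact Subgroup.map_mono S.2⟩ :
        {S : Sylow p G' // H.map φ ≤ (S : Subgroup G')})) ⟨?_, ?_⟩)
  · intro S T h
    have h1 : (S.1 : Subgroup G).map φ = (T.1 : Subgroup G).map φ := by
      have := congrArg (fun z => ((z.1 : Sylow p G') : Subgroup G')) h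
      simpa using this
    have h2 : φ.ker ≤ (S.1 : Subgroup G) := hK.le_sylow_of_normal S.1
    have h3 : φ.ker ≤ (T.1 : Subgroup G) := hK.le_sylow_of_normal T.1
    apply Subtype.ext; apply Sylow.ext
    rw [← Subgroup.comap_map_eq_self h2, ← Subgroup.comap_map_eq_self h3, h1]
  · rintro ⟨S', hS'⟩
    have h1 : IsPGroup p ((S' : Subgroup G').comap φ) := S'.2.comap_of_ker_isPGroup φ hK
    obtain ⟨S, hS⟩ := h1.exists_le_sylow
    refine ⟨⟨S, (Subgroup.map_le_iff_le_comap.mp hS').trans hS⟩, ?_⟩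
    apply Subtype.ext; apply Sylow.ext
    change (S : Subgroup G).map φ = S'
    have h2 : (S' : Subgroup G') ≤ (S : Subgroup G).map φ := by
      rw [← Subgroup.map_comap_eq_self_of_surjective hφ (S' : Subgroup G')]
      exact Subgroup.map_mono hS
    exact S'.3 (S.2.map φ) h2

end ker

/-- the step of the induction -/
theorem step_coprime {p : ℕ} [Fact p.Prime] {P G G' : Type*} [Group P] [Fintype P] [Group G] [Group G'] [Finite G]
    (φ : G →* G') (hφ : Function.Surjective φ) (hK : (Nat.card φ.ker).Coprime p) (ψ : P →* G)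
    (hP : IsPGroup p P) (S : Sylow p G) (hS : (S : Subgroup G) = (⊤ : Subgroup P).map ψ)
    (h : (∏ x : P, lam p (((Subgroup.zpowers x).map ψ).map φ)) ^ p ≤ (lam p (⊥ : Subgroup G')) ^ Nat.card P) :
    (∏ x : P, lam p ((Subgroup.zpowers x).map ψ)) ^ p ≤ (lam p (⊥ : Subgroup G)) ^ Nat.card P := by
  classical
  have hp : p.Prime := Fact.out
  -- action of `P` on the kernel by conjugation
  let V := φ.ker
  let act : MulDistribMulAction P V :=
    MulDistribMulAction.compHom V ((MulAut.conjNormal (H := V)).comp ψ)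
  have hsm : ∀ (x : P) (w : V), ((x • w : V) : G) = ψ x * w * (ψ x)⁻¹ := fun x w => rfl
  have hfx : ∀ X : Subgroup P, fx V X = Nat.card (CK φ (X.map ψ)) := by
    intro X
    refine Nat.card_congr ⟨fun w => ⟨w.1.1, w.1.2, ?_⟩, fun k => ⟨⟨k.1, k.2.1⟩, ?_⟩, fun _ => rfl, fun _ => rfl⟩
    · rintro _ ⟨x, hx, rfl⟩
      have h1 := congrArg Subtype.val (w.2 x hx)
      rw [hsm] at h1
      exact (mul_inv_eq_iff_eq_mul.mp h1).symm
    · intro x hx
      apply Subtype.ext
      rw [hsm]
      exact mul_inv_eq_iff_eq_mul.mpr (k.2.2 _ ⟨x, hx, rfl⟩).symm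
  have hkif := kif hp P hP (Nat.card V) V rfl hK
  unfold KIF at hkif
  simp only [hfx] at hkif
  -- the relations
  have hrel : ∀ X : Subgroup P, lam p (X.map ψ) * Nat.card (CK φ ((⊤ : Subgroup P).map ψ)) =
      Nat.card (CK φ (X.map ψ)) * lam p ((X.map ψ).map φ) := by
    intro X
    rw [← hS]
    exact lam_of_coprime φ hφ hK ((hP.to_subgroup X).map ψ) S
  set c := Nat.card (CK φ ((⊤ : Subgroup P).map ψ)) with hc
  have hcpos : 0 < c := by
    have : Nonempty (CK φ ((⊤ : Subgroup P).map ψ)) := ⟨⟨1, map_one φ, fun h _ => by rw [one_mul, mul_one]⟩⟩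
    exact Nat.card_pos
  set N := Nat.card P with hN
  have h1 : (∏ x : P, lam p ((Subgroup.zpowers x).map ψ)) * c ^ N =
      (∏ x : P, Nat.card (CK φ ((Subgroup.zpowers x).map ψ))) * ∏ x : P, lam p (((Subgroup.zpowers x).map ψ).map φ) := by
    rw [← Finset.prod_mul_distrib]
    rw [← Finset.prod_congr rfl (fun x _ => hrel (Subgroup.zpowers x)), Finset.prod_mul_distrib]
    rw [Finset.prod_const, Finset.card_univ, hN, Nat.card_eq_fintype_card]
  have hbot : lam p (⊥ : Subgroup G) * c = Nat.card (CK φ ((⊥ : Subgroup P).map ψ)) * lam p (⊥ : Subgroup G') := by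
    have := hrel ⊥
    rw [Subgroup.map_bot, Subgroup.map_bot] at this
    rw [Subgroup.map_bot]
    exact this
  set A := ∏ x : P, lam p ((Subgroup.zpowers x).map ψ) with hA
  set B := ∏ x : P, Nat.card (CK φ ((Subgroup.zpowers x).map ψ)) with hB
  set D := ∏ x : P, lam p (((Subgroup.zpowers x).map ψ).map φ) with hD
  set n := lam p (⊥ : Subgroup G) with hn
  set n' := lam p (⊥ : Subgroup G') with hn'
  set k := Nat.card (CK φ ((⊥ : Subgroup P).map ψ)) with hk
  -- `A c^N = B D`, `D^p ≤ n'^N`, `B^p ≤ c^(N(p-1)) k^N`, `n c = k n'`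
  have h2 : A ^ p * c ^ (N * p) ≤ n ^ N * c ^ (N * p) := by
    calc A ^ p * c ^ (N * p) = (A * c ^ N) ^ p := by rw [mul_pow, ← pow_mul]
      _ = (B * D) ^ p := by rw [h1]
      _ = B ^ p * D ^ p := by rw [mul_pow]
      _ ≤ (c ^ (N * (p - 1)) * k ^ N) * n' ^ N := Nat.mul_le_mul hkif h
      _ = c ^ (N * (p - 1)) * (k * n') ^ N := by rw [mul_pow]; ring
      _ = c ^ (N * (p - 1)) * (n * c) ^ N := by rw [hbot]
      _ = n ^ N * (c ^ (N * (p - 1)) * c ^ N) := by rw [mul_pow]; ring
      _ = n ^ N * c ^ (N * p) := by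
        rw [← pow_add]
        congr 2
        have := hp.one_lt
        have e : N * p = N * (p - 1) + N * 1 := by rw [← mul_add]; congr 1; omega
        rw [e, mul_one]
  exact Nat.le_of_mul_le_mul_right h2 (pow_pos hcpos _)

theorem step_pgroup {p : ℕ} [Fact p.Prime] {P G G' : Type*} [Group P] [Fintype P] [Group G] [Group G'] [Finite G]
    (φ : G →* G') (hφ : Function.Surjective φ) (hK : IsPGroup p φ.ker) (ψ : P →* G)
    (h : (∏ x : P, lam p (((Subgroup.zpowers x).map ψ).map φ)) ^ p ≤ (lam p (⊥ : Subgroup G')) ^ Nat.card P) :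
    (∏ x : P, lam p ((Subgroup.zpowers x).map ψ)) ^ p ≤ (lam p (⊥ : Subgroup G)) ^ Nat.card P := by
  have h1 : lam p (⊥ : Subgroup G) = lam p (⊥ : Subgroup G') := by
    rw [lam_of_isPGroup φ hφ hK, Subgroup.map_bot]
  have h2 : ∀ x : P, lam p ((Subgroup.zpowers x).map ψ) = lam p (((Subgroup.zpowers x).map ψ).map φ) :=
    fun x => lam_of_isPGroup φ hφ hK _
  rw [h1, Finset.prod_congr rfl (fun x _ => h2 x)]
  exact h

end Cfsg.Agent.H515.Lam
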