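import Cfsg.Agent.Ly.Setup

/-!
# The centralizer of an element of order 31 of the Lyons group (helper515)

An element of order 31 fixes exactly one coset of `G₂(5)`, and a matrix of order 31 in `G₂(5) ≤ GL_7(5)` is cyclic,
so its centralizer consists of polynomials in it, which satisfy `Y ^ 125 = Y`.
-/

set_option autoImplicit false
set_option maxRecDepth 100000

namespace Cfsg.Agent.H515.LyCent

open Matrix Polynomial

section cyclic

abbrev M7 := Matrix (Fin 7) (Fin 7) (ZMod 5)

/-- The matrix with columns `X ^ k e₀`. -/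
def kry (X : M7) : M7 := fun i k => (X ^ (k : ℕ)) i 0

theorem mul_kry (Y X : M7) (i k : Fin 7) : (Y * kry X) i k = (Y * X ^ (k : ℕ)) i 0 := rfl

theorem exists_poly {X Y Q : M7} (h1 : kry X * Q = 1) (hc : Y * X = X * Y) :
    ∃ p : (ZMod 5)[X], Y = aeval X p := by
  set p : (ZMod 5)[X] := ∑ k : Fin 7, C ((Q * Y) k 0) * Polynomial.X ^ (k : ℕ) with hp
  refine ⟨p, ?_⟩
  have hD : ∀ l, aeval X p l 0 = Y l 0 := by
    intro l
    have h2 : (kry X * (Q * Y)) l 0 = Y l 0 := by rw [← Matrix.mul_assoc, h1, Matrix.one_mul]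
    rw [← h2, hp, map_sum, Matrix.sum_apply, Matrix.mul_apply]
    refine Finset.sum_congr rfl fun k _ => ?_
    rw [map_mul, aeval_C, map_pow, aeval_X, Algebra.algebraMap_eq_smul_one, smul_mul_assoc, one_mul,
      Matrix.smul_apply, smul_eq_mul, mul_comm]
    rfl
  have hDX : ∀ k : ℕ, aeval X p * X ^ k = X ^ k * aeval X p := fun k => by
    have h3 : X ^ k = aeval X ((Polynomial.X : (ZMod 5)[X]) ^ k) := by rw [map_pow, aeval_X]
    rw [h3, ← map_mul, ← map_mul, mul_comm]
  have hYX : ∀ k : ℕ, Y * X ^ k = X ^ k * Y := fun k => (Commute.pow_right (show Commute Y X from hc) k)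
  have h4 : Y * kry X = aeval X p * kry X := by
    ext i k
    rw [mul_kry, mul_kry, hYX, hDX, Matrix.mul_apply, Matrix.mul_apply]
    exact Finset.sum_congr rfl fun l _ => by rw [hD]
  calc Y = Y * kry X * Q := by rw [Matrix.mul_assoc, h1, Matrix.mul_one]
    _ = aeval X p * kry X * Q := by rw [h4]
    _ = aeval X p := by rw [Matrix.mul_assoc, h1, Matrix.mul_one]

theorem aeval_pow_five (Z : M7) (p : (ZMod 5)[X]) : (aeval Z p) ^ 5 = aeval (Z ^ 5) p := by
  have : Fact (Nat.Prime 5) := ⟨by norm_num⟩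
  rw [← expand_aeval, ZMod.expand_card, map_pow]

/-- Matrices commuting with a cyclic matrix `X` with `X ^ 125 = X`. -/
theorem pow_eq {X Y Q : M7} (h1 : kry X * Q = 1) (hc : Y * X = X * Y) (hX : X ^ 125 = X) : Y ^ 125 = Y := by
  obtain ⟨p, rfl⟩ := exists_poly h1 hc
  rw [show 125 = 5 * 5 * 5 by norm_num, pow_mul, pow_mul, aeval_pow_five, aeval_pow_five, aeval_pow_five,
    ← pow_mul, ← pow_mul]
  conv_rhs => rw [← hX]

end cyclic

section data

open Cfsg.Agent.Lib.PackMat Cfsg.Agent.Ly.Mat7 Cfsg.Agent.Ly.CoverCore Cfsg.Agent.Ly.Cover Cfsg.Agent.Ly.Setup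

/-- the word -/
def W : List ℕ := [0, 3, 2]

/-- the word of the power -/
def WW (k : ℕ) : List ℕ := (List.replicate k W).flatten

theorem ev_WW {G : Type*} [Group G] (x : Fin 4 → G) (k : ℕ) : ev x (WW k) = ev x W ^ k := by
  induction k with
  | zero => simp [WW, ev]
  | succ k ih =>
    have h : WW (k + 1) = W ++ WW k := by
      unfold WW
      rw [List.replicate_succ, List.flatten_cons]
    rw [h, ev_append, ih, pow_succ']

/-- code of the Krylov matrix -/
def PC : ℕ := 0x4000400040001000400020000000400030004000100030003000000010002000100030001000000000004000400010002000000000000000200010003000100010000000000030002000300030000000000000004000000000004000100000001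

/-- code of its inverse -/
def QC : ℕ := 0x1000100020004000100010000000400040002000000000002000000010001000100020002000300000002000200040004000200000000000400040002000200010002000000020004000400020001000400000004000400040001000200040001

theorem ok_P : Ok PC := okN_spec (by decide +kernel)
theorem ok_Q : Ok QC := okN_spec (by decide +kernel)
theorem PQ : mulN PC QC = oneN := by decide +kernel
theorem pow31 : eqW (WW 31) [] = true := by decide +kernel
theorem digits : ∀ k < 7, ∀ i < 7, dg 16 (evalW (WW k)) (7 * i) = dg 16 PC (7 * i + k) := by decide +kernel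

/-- the matrix of order 31 -/
def g0 : GL75 := ev gen W

theorem g0_mem : g0 ∈ Hhat := ev_mem_Hhat W

theorem g0_pow : g0 ^ 31 = 1 := by
  unfold g0
  rw [← ev_WW]
  exact word_eq pow31

theorem kry_g0 : kry (g0 : M7) = toM PC := by
  ext i k
  have h1 : ((g0 : M7) ^ (k : ℕ)) = toM (evalW (WW k)) := by
    have h2 := (rep_evalW (WW k)).2
    rw [← h2, ev_WW, Units.val_pow_eq_pow_val]
    rfl
  show ((g0 : M7) ^ (k : ℕ)) i 0 = toM PC i k
  rw [h1]
  show ((dg 16 (evalW (WW k)) (7 * i + ((0 : Fin 7) : ℕ)) : ℕ) : ZMod 5) = ((dg 16 PC (7 * i + k) : ℕ) : ZMod 5)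
  rw [Fin.val_zero, Nat.add_zero, digits k k.2 i i.2]

theorem kry_mul : kry (g0 : M7) * toM QC = 1 := by
  rw [kry_g0, ← toM_mulN ok_P ok_Q, PQ, toM_oneN]

theorem g0_ne : g0 ≠ 1 := by
  intro h
  have h1 := congrFun (congrFun kry_mul 1) 1
  rw [Matrix.mul_apply] at h1
  have h2 : ∀ k : Fin 7, kry (g0 : M7) 1 k = 0 := by
    intro k
    show ((g0 : M7) ^ (k : ℕ)) 1 0 = 0
    rw [h, Units.val_one, one_pow]
    rfl
  rw [Finset.sum_eq_zero fun k _ => by rw [h2, zero_mul]] at h1
  exact absurd h1 (by decide)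

/-- Elements of `GL_7(5)` commuting with `g0`. -/
theorem pow_124 {y : GL75} (h : y * g0 = g0 * y) : y ^ 124 = 1 := by
  have h1 : (y : M7) ^ 125 = y := by
    refine pow_eq kry_mul (by rw [← Units.val_mul, h, Units.val_mul]) ?_
    rw [← Units.val_pow_eq_pow_val, show 125 = 31 * 4 + 1 by norm_num, pow_succ, pow_mul, g0_pow, one_pow, one_mul]
  have h2 : y ^ 125 = y := Units.ext (by rw [Units.val_pow_eq_pow_val, h1])
  rw [pow_succ] at h2
  exact mul_eq_right.1 h2

end data

end Cfsg.Agent.H515.LyCent
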